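import Mathlib

/-! Groups of order 7920 with disconnected prime graph. -/

set_option autoImplicit false

namespace Cfsg.Agent.KG

open scoped Pointwise
open MulAction

/-- `f` is constant on the components of the prime graph -/
def PG (G : Type*) [Group G] (f : ℕ → Prop) : Prop :=
  ∀ (g : G) (a b : ℕ), a.Prime → b.Prime → a ∣ orderOf g → b ∣ orderOf g → f a → f b

variable {G : Type*} [Group G] [Finite G]

theorem card_dvd_of_free {S X : Type*} [Group S] [MulAction S X] [Finite X] {x : X} (h0 : ∀ s : S, s • x = x)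
    (h : ∀ (s : S) y, s • y = y → s = 1 ∨ y = x) : Nat.card S ∣ Nat.card X - 1 := by
  classical
  let Y : SubMulAction S X := ⟨{y | y ≠ x}, fun s y hy e => hy (smul_left_cancel s (e.trans (h0 s).symm))⟩
  have := Fintype.ofFinite X
  have h1 : Nat.card Y = Nat.card X - 1 := by
    rw [Nat.card_congr (show Y ≃ {y // y ≠ x} from Equiv.refl _)]; simp
  rw [← h1, Nat.card_congr (selfEquivOrbitsQuotientProd (G := S) (X := Y) fun y => eq_bot_iff.2 fun s hs =>
    (h s y (congrArg Subtype.val hs)).resolve_right y.2), Nat.card_prod]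
  exact dvd_mul_left _ _

theorem PG.dvd {f : ℕ → Prop} (h : PG G f) {a b : ℕ} [ha : Fact a.Prime] [hb : Fact b.Prime] (h1 : ¬ (f a ↔ f b))
    {S R : Subgroup G} (hS : IsPGroup a S) (hR : IsPGroup b R) (h2 : S ≤ Subgroup.normalizer R) :
    Nat.card S ∣ Nat.card R - 1 := by
  let _ : MulDistribMulAction S R := MulDistribMulAction.compHom R (R.normalizerMonoidHom.comp (Subgroup.inclusion h2))
  refine card_dvd_of_free (x := (1 : R)) smul_one fun s y e => ?_
  by_contra! h3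
  have h4 : Commute (s : G) y := mul_inv_eq_iff_eq_mul.1 (congrArg Subtype.val e)
  obtain ⟨_ | k, hk⟩ := IsPGroup.iff_orderOf.1 hS s
  · exact h3.1 (orderOf_eq_one_iff.1 hk)
  obtain ⟨_ | l, hl⟩ := IsPGroup.iff_orderOf.1 hR y
  · exact h3.2 (orderOf_eq_one_iff.1 hl)
  rw [← Subgroup.orderOf_coe] at hk hl
  have h5 := h4.orderOf_mul_eq_mul_orderOf_of_coprime (by
    rw [hk, hl]; exact Nat.coprime_pow_primes _ _ ha.1 hb.1 fun e => h1 (by rw [e]))
  have h6 : a ∣ orderOf (s * y : G) := h5 ▸ hk ▸ (dvd_pow_self a k.succ_ne_zero).mul_right _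
  have h7 : b ∣ orderOf (s * y : G) := h5 ▸ hl ▸ (dvd_pow_self b l.succ_ne_zero).mul_left _
  exact h1 ⟨h _ _ _ ha.1 hb.1 h6 h7, h _ _ _ hb.1 ha.1 h7 h6⟩

theorem exists_inv_sylow {N S : Subgroup G} [hn : N.Normal] {a : ℕ} [Fact a.Prime] (hS : IsPGroup a S)
    (h : ¬ a ∣ Nat.card N) (r : ℕ) [Fact r.Prime] : ∃ R : Subgroup G, IsPGroup r R ∧
      Nat.card R = r ^ (Nat.card N).factorization r ∧ S ≤ Subgroup.normalizer R := by
  let _ : MulDistribMulAction S N := MulDistribMulAction.compHom N ((MulAut.conjNormal (H := N)).comp S.subtype)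
  obtain ⟨R, hR⟩ := hS.nonempty_fixed_point_of_prime_not_dvd_card (Sylow r N) fun e =>
    h (e.trans ((Sylow.card_dvd_index default).trans (Subgroup.index_dvd_card _)))
  refine ⟨R.1.map N.subtype, R.2.map _, by rw [Subgroup.card_subtype, R.card_eq_multiplicity], fun s hs =>
    Subgroup.mem_normalizer_fintype ?_⟩
  rintro _ ⟨x, hx, rfl⟩
  exact ⟨(⟨s, hs⟩ : S) • x, by rw [← hR ⟨s, hs⟩]; exact Subgroup.smul_mem_pointwise_smul _ _ _ hx, rfl⟩

theorem card_sylow_mul {p : ℕ} [Fact p.Prime] (P : Sylow p G) :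
    Nat.card (Subgroup.normalizer (P : Set G)) * Nat.card (Sylow p G) = Nat.card G := by
  rw [P.card_eq_index_normalizer, Subgroup.card_mul_index]

instance instFactFive : Fact (Nat.Prime 5) := ⟨Nat.prime_five⟩

instance instFactEleven : Fact (Nat.Prime 11) := ⟨Nat.prime_eleven⟩

theorem PG.iff_of_495 {f : ℕ → Prop} (h : PG G f) (hG : Nat.card G = 495) : f 3 ↔ f 5 := by
  by_contra h1
  obtain ⟨P⟩ : Nonempty (Sylow 5 G) := inferInstance
  have h2 : Nat.card P = 5 := by rw [P.card_eq_multiplicity, hG]; decide +kernel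
  have h3 := card_sylow_mul P
  have h4 := card_sylow_modEq_one 5 G
  have h5 : Nat.card (Sylow 5 G) ∈ Nat.divisors 495 := Nat.mem_divisors.2 ⟨hG ▸ Dvd.intro_left _ h3, by simp⟩
  obtain ⟨S, hS⟩ := Sylow.exists_subgroup_card_pow_prime (G := Subgroup.normalizer (P : Set G)) 3 (n := 1) (by
    rcases (by decide +kernel : ∀ n ∈ Nat.divisors 495, n % 5 = 1 → n = 1 ∨ n = 11) _ h5 h4 with e | e <;>
      rw [hG, e] at h3 <;> omega)
  have h6 := h.dvd h1 ((IsPGroup.of_card hS).map (Subgroup.subtype _)) P.2 (Subgroup.map_subtype_le _)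
  rw [Subgroup.card_subtype, hS] at h6
  erw [h2] at h6
  omega

variable {f : ℕ → Prop} (h : PG G f) (hG : Nat.card G = 7920) (h11 : f 11) (hs : ∃ s, s.Prime ∧ s ∣ 7920 ∧ ¬ f s)
include h hG h11 hs

theorem PG.eq_bot {N : Subgroup G} [N.Normal] (hN : ¬ 11 ∣ Nat.card N) : N = ⊥ := by
  by_contra h0
  have hd : Nat.card N ∣ 7920 := hG ▸ N.card_subgroup_dvd_card
  have h1 : ∀ s r : ℕ, s.Prime → r.Prime → r ∣ Nat.card N → ¬ s ∣ Nat.card N → ¬ (f s ↔ f r) → s ∣ 7920 → s = 5 ∧ r = 2 ∧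
      16 ∣ Nat.card N := fun s r hs hr h1 h2 h3 h4 => by
    have := Fact.mk hs
    have := Fact.mk hr
    obtain ⟨S⟩ : Nonempty (Sylow s G) := inferInstance
    obtain ⟨R, h5, h6, h7⟩ := exists_inv_sylow S.2 h2 r
    have h8 := h.dvd h3 S.2 h5 h7
    have h9 := Nat.ordProj_dvd (Nat.card N) r
    have h10 := hr.factorization_pos_of_dvd Nat.card_pos.ne' h1
    rw [h6, S.card_eq_multiplicity, hG] at h8
    generalize (Nat.card N).factorization r = k at *
    have h11 : k ≤ 4 := ((hr.pow_dvd_iff_le_factorization (by simp)).1 (h9.trans hd)).trans ((by decide +kernel :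
      ∀ r ∈ Nat.primeFactors 7920, (7920).factorization r ≤ 4) r (Nat.mem_primeFactors.2 ⟨hr, h1.trans hd, by simp⟩))
    obtain ⟨h12, rfl, rfl⟩ := (by decide +kernel : ∀ s ∈ Nat.primeFactors 7920, ∀ r ∈ Nat.primeFactors 7920,
      ∀ k ∈ Finset.Icc 1 4, r ≠ 11 → r ^ k ∣ 7920 → s ^ (7920).factorization s ∣ r ^ k - 1 → s = 5 ∧ r = 2 ∧ k = 4) s
      (Nat.mem_primeFactors.2 ⟨hs, h4, by simp⟩) r (Nat.mem_primeFactors.2 ⟨hr, h1.trans hd, by simp⟩) k
      (Finset.mem_Icc.2 ⟨h10, h11⟩) (by rintro rfl; exact hN h1) (h9.trans hd) h8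
    exact ⟨h12, rfl, h9⟩
  have h2 : ∀ r : ℕ, r.Prime → r ∣ Nat.card N → f r := fun r hr h2 => by
    by_contra h3
    simpa using (h1 11 r Nat.prime_eleven hr h2 hN (by simp [h11, h3]) (by norm_num)).1
  have h3 : ∀ s : ℕ, s.Prime → s ∣ 7920 → ¬ f s → ∀ r : ℕ, r.Prime → r ∣ Nat.card N → s = 5 ∧ r = 2 ∧ 16 ∣ Nat.card N :=
    fun s hs h3 h4 r hr h5 => h1 s r hs hr h5 (fun e => h4 (h2 s hs e)) (by simp [h4, h2 r hr h5]) h3
  obtain ⟨s, h4, h5, h6⟩ := hs
  obtain ⟨r, hr, h7⟩ := Nat.exists_prime_and_dvd (mt Subgroup.card_eq_one.1 h0)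
  obtain ⟨rfl, rfl, h8⟩ := h3 s h4 h5 h6 r hr h7
  have h9 : f 3 := by
    by_contra h9
    simpa using (h3 3 Nat.prime_three (by norm_num) h9 2 hr h7).1
  have h10 : Nat.card N = 16 := (by decide +kernel : ∀ n ∈ Nat.divisors 7920, 16 ∣ n → ¬ 3 ∣ n → ¬ 5 ∣ n → ¬ 11 ∣ n → n = 16)
    _ (Nat.mem_divisors.2 ⟨hd, by simp⟩) h8 (fun e => by simpa using (h3 5 h4 h5 h6 3 Nat.prime_three e).2.1)
    (fun e => h6 (h2 5 h4 e)) hN
  refine h6 ((PG.iff_of_495 (G := G ⧸ N) (fun g => QuotientGroup.induction_on g fun g a b ha hb h1 h2 =>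
    h g a b ha hb (h1.trans (orderOf_map_dvd (QuotientGroup.mk' N) g))
      (h2.trans (orderOf_map_dvd (QuotientGroup.mk' N) g))) ?_).1 h9)
  have := N.card_mul_index
  rw [h10, hG, Subgroup.index] at this
  omega

theorem PG.normal {H : Subgroup G} [hH : H.Normal] {P : Sylow 11 G} (h1 : P.1 ≤ H)
    (h2 : H ⊓ Subgroup.normalizer (P : Set G) ≤ Subgroup.centralizer P) : H = P := by
  have h3 : Subgroup.normalizer (P.subtype h1 : Set H) ≤ Subgroup.centralizer (P.subtype h1) := fun x hx y hy =>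
    Subtype.ext (h2 ⟨x.2, Subgroup.mem_normalizer_fintype fun z hz => (hx ⟨z, h1 hz⟩).1 hz⟩ y hy)
  have h4 := MonoidHom.not_dvd_card_ker_transferSylow _ h3
  have h5 := MonoidHom.ker_transferSylow_isComplement' _ h3
  generalize MonoidHom.transferSylow _ h3 = τ at h4 h5
  have : (τ.ker.map H.subtype).Normal := ⟨by
    rintro _ ⟨x, hx, rfl⟩ g
    refine ⟨⟨_, hH.conj_mem _ x.2 g⟩, ?_, rfl⟩
    obtain ⟨k, hk⟩ := (P.subtype h1).2 (τ ⟨_, hH.conj_mem _ x.2 g⟩)
    have h6 : x ^ Nat.card τ.ker = 1 := congrArg Subtype.val (pow_card_eq_one' (x := (⟨x, hx⟩ : τ.ker)))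
    rw [SetLike.mem_coe, MonoidHom.mem_ker, ← pow_one (τ _),
      ← (((Nat.Prime.coprime_iff_not_dvd Nat.prime_eleven).2 h4).pow_left k).gcd_eq_one, pow_gcd_eq_one]
    exact ⟨hk, by rw [← map_pow, ← map_one τ]; congr 1; ext; simpa using congrArg Subtype.val h6⟩⟩
  have h6 := (Subgroup.map_eq_bot_iff_of_injective _ H.subtype_injective).1
    (h.eq_bot hG h11 hs (N := τ.ker.map H.subtype) (by rwa [Subgroup.card_subtype]))
  rw [h6, Subgroup.isComplement'_bot_left] at h5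
  exact le_antisymm (Subgroup.subgroupOf_eq_top.1 h5) h1

theorem PG.card_fix {P : Sylow 11 G} {t : G} (ht : t ∈ Subgroup.centralizer (P : Set G)) (h0 : t ≠ 1)
    (h1 : 1 < Nat.card (Sylow 11 G)) (h2 : Nat.card (Sylow 11 G) ≤ 45) : Nat.card (fixedBy (Sylow 11 G) t) ∈ Nat.divisors 720 ∧
      Nat.card (fixedBy (Sylow 11 G) t) % 11 = 1 ∧ Nat.card (fixedBy (Sylow 11 G) t) < Nat.card (Sylow 11 G) := by
  have hc : ∀ Q : Sylow 11 G, Nat.card Q.1 = 11 := fun Q => by rw [Q.card_eq_multiplicity, hG]; decide +kernel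
  have a1 : ∀ (Q : Sylow 11 G) (A : Subgroup G), A ⊓ Q = ⊥ ∨ Q.1 ≤ A := fun Q A =>
    ((Nat.dvd_prime Nat.prime_eleven).1 ((Subgroup.card_dvd_of_le inf_le_right).trans (hc Q).dvd)).imp Subgroup.card_eq_one.1
      fun e => inf_eq_right.1 (Subgroup.eq_of_le_of_card_ge inf_le_right (by rw [e, hc]))
  have a2 : ∀ Q R : Sylow 11 G, Q.1 ≤ stabilizer G R → Q = R := fun Q R e => Sylow.ext (Subgroup.eq_of_le_of_card_ge
    (Q.2.sylow_mem_fixedPoints_iff.1 fun g => e g.2) (by rw [hc, hc]))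
  have a3 : ∀ {Q : Sylow 11 G}, t ∈ Subgroup.centralizer (Q : Set G) → t • Q = Q := fun e =>
    Sylow.smul_eq_iff_mem_normalizer.2 (Subgroup.centralizer_le_normalizer _ e)
  have a4 : Nat.card (fixedBy (Sylow 11 G) t) % 11 = 1 := by
    let S : SubMulAction P.1 (Sylow 11 G) := ⟨fixedBy _ t, fun g Q hQ => by
      rw [mem_fixedBy, Subgroup.smul_def, smul_smul, ← ht _ g.2, mul_smul, hQ]⟩
    have := P.2.card_modEq_card_fixedPoints S
    rwa [(Nat.card_eq_one_iff_unique (α := fixedPoints P.1 S)).2 ⟨⟨fun Q R => Subtype.ext (Subtype.ext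
      ((a2 P _ fun g hg => congrArg Subtype.val (Q.2 ⟨g, hg⟩)).symm.trans
        (a2 P _ fun g hg => congrArg Subtype.val (R.2 ⟨g, hg⟩))))⟩, ⟨⟨P, a3 ht⟩, fun g => Subtype.ext
          (Sylow.smul_eq_iff_mem_normalizer.2 (Subgroup.le_normalizer g.2))⟩⟩] at this
  refine ⟨?_, a4, Finite.card_subtype_lt (not_forall.1 fun e => ?_).choose_spec⟩
  swap
  · have h3 := h.eq_bot hG h11 hs (N := (toPermHom G (Sylow 11 G)).ker) fun e => by
      obtain ⟨x, hx⟩ := exists_prime_orderOf_dvd_card' 11 e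
      obtain ⟨Q, hQ⟩ := (IsPGroup.of_card (n := 1) ((Nat.card_zpowers x.1).trans ((Subgroup.orderOf_coe x).trans
        (hx.trans (pow_one 11).symm)))).exists_le_sylow
      obtain ⟨R, hR⟩ := @exists_ne _ (Finite.one_lt_card_iff_nontrivial.1 h1) Q
      refine hR (a2 _ _ ((a1 Q _).resolve_left fun e => ?_)).symm
      have : x = 1 := Subtype.ext (e.le ⟨DFunLike.congr_fun x.2 R, hQ (Subgroup.mem_zpowers _)⟩)
      simp [this] at hx
    exact h0 (h3.le (Equiv.ext e))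
  by_cases h3 : ∀ Q ∈ fixedBy (Sylow 11 G) t, t ∈ Subgroup.centralizer (Q : Set G)
  · have h4 : ∀ {Q : Sylow 11 G}, t ∈ Subgroup.centralizer (Q : Set G) → Q.1 ≤ Subgroup.centralizer {t} :=
      fun e g hg b hb => hb ▸ (e g hg).symm
    have h5 : fixedBy (Sylow 11 G) t = orbit (Subgroup.centralizer {t}) P := by
      refine Set.ext fun Q => ⟨fun hQ => ?_, ?_⟩
      · obtain ⟨g, e⟩ := exists_smul_eq (Subgroup.centralizer {t}) (P.subtype (h4 ht)) (Q.subtype (h4 (h3 Q hQ)))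
        exact ⟨g, Sylow.subtype_injective ((Sylow.smul_subtype _ _).symm.trans e)⟩
      · rintro ⟨g, rfl⟩
        change t • g.1 • P = g.1 • P
        rw [smul_smul, g.2 t rfl, mul_smul, a3 ht]
    have h6 := (index_stabilizer (Subgroup.centralizer {t}) P ▸ Subgroup.index_dvd_card _).trans
      (Subgroup.card_subgroup_dvd_card _)
    rw [← h5, hG, ← Nat.card_coe_set_eq, show 7920 = 720 * 11 from rfl] at h6
    exact Nat.mem_divisors.2 ⟨Nat.Coprime.dvd_of_dvd_mul_right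
      ((Nat.Prime.coprime_iff_not_dvd Nat.prime_eleven).2 (by omega)).symm h6, by simp⟩
  push Not at h3
  obtain ⟨Q, h3, h4⟩ := h3
  have h5 := Nat.card_le_card_of_injective (fun z : Q.1 × (fixedBy (Sylow 11 G) t \ {Q} : Set _) => z.1.1 • z.2.1) (by
    rintro ⟨x, R, h5, h6⟩ ⟨y, R', h7, h7'⟩ e
    have h8 : (y⁻¹ * x).1 • R = R' := by rw [Subgroup.coe_mul, mul_smul, Subgroup.coe_inv, inv_smul_eq_iff]; assumption
    generalize hz : y⁻¹ * x = z at h8
    have h9 : z.1⁻¹ * (t * z * t⁻¹) ∈ stabilizer G R ⊓ Q := Subgroup.mem_inf.2 ⟨by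
      rw [mem_stabilizer_iff, mul_smul, mul_smul, mul_smul, inv_smul_eq_iff.2 h5.symm, h8, h7, inv_smul_eq_iff, h8],
      mul_mem (inv_mem z.2) ((Sylow.smul_eq_iff_mem_normalizer.1 h3 _).1 z.2)⟩
    rw [(a1 Q _).resolve_right fun e => h6 (a2 _ _ e).symm, Subgroup.mem_bot, inv_mul_eq_one, eq_mul_inv_iff_mul_eq] at h9
    obtain rfl : z = 1 := Subtype.ext (((a1 Q (Subgroup.centralizer {t})).resolve_right fun e =>
      h4 fun g hg => (e hg t rfl).symm).le ⟨fun b hb => hb ▸ h9.symm, z.2⟩)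
    exact Prod.ext (inv_mul_eq_one.1 hz).symm (Subtype.ext ((one_smul G R).symm.trans h8)))
  rw [Nat.card_prod, hc, Nat.card_coe_set_eq, Set.ncard_sdiff_singleton_of_mem h3, ← Nat.card_coe_set_eq] at h5
  rw [show Nat.card (fixedBy (Sylow 11 G) t) = 1 by omega]
  simp

theorem PG.isSimpleGroup : IsSimpleGroup G := by
  have : Nontrivial G := Finite.one_lt_card_iff_nontrivial.1 (by omega)
  refine ⟨fun N hN => ?_⟩
  by_contra! h0
  obtain ⟨x, hx⟩ := exists_prime_orderOf_dvd_card' 11 (not_not.1 (mt (h.eq_bot hG h11 hs) h0.1))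
  have hx' := (Nat.card_zpowers x.1).trans ((Subgroup.orderOf_coe x).trans hx)
  obtain ⟨P, hP⟩ := (IsPGroup.of_card (n := 1) (hx'.trans (pow_one 11).symm)).exists_le_sylow
  have hc : Nat.card P.1 = 11 := by rw [P.card_eq_multiplicity, hG]; decide +kernel
  have h1' := card_sylow_mul P
  have h1 := Nat.eq_div_of_mul_eq_left Nat.card_pos.ne' h1'
  have h2 : P.1 ≤ Subgroup.centralizer P := by
    have := isCyclic_of_prime_card hc
    exact P.1.le_centralizer
  have h3 := Subgroup.card_dvd_of_injective _ (QuotientGroup.kerLift_injective P.1.normalizerMonoidHom)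
  rw [Subgroup.normalizerMonoidHom_ker, ← Subgroup.index, (isCyclic_of_prime_card hc).card_mulAut, hc] at h3
  have h4 := ((Subgroup.centralizer (P : Set G)).subgroupOf (Subgroup.normalizer P)).card_mul_index
  rw [Nat.card_congr (Subgroup.subgroupOfEquivOfLe (Subgroup.centralizer_le_normalizer _)).toEquiv] at h4
  have h5 : Nat.card (Subgroup.normalizer (P : Set G)) ∣ Nat.card (Subgroup.centralizer (P : Set G)) * 10 :=
    h4 ▸ mul_dvd_mul_left _ h3
  have h6 : ∀ (r : ℕ) [Fact r.Prime] (T : Subgroup G) t, IsPGroup r T → t ∈ T →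
      Nat.card (Sylow 11 G) % r = Nat.card (fixedBy (Sylow 11 G) t) % r := fun r _ T t hT ht => by
    have := (hT.to_le (Subgroup.zpowers_le.2 ht)).card_modEq_card_fixedPoints (Sylow 11 G)
    rwa [show fixedPoints (Subgroup.zpowers t) (Sylow 11 G) = fixedBy _ t from Set.ext fun Q =>
      ⟨fun e => e ⟨t, Subgroup.mem_zpowers t⟩, fun e g => (Subgroup.zpowers_le.2 e : _ ≤ stabilizer G Q) g.2⟩] at this
  rcases (by decide +kernel : ∀ n ∈ Nat.divisors 7920, n % 11 = 1 → n = 1 ∨ n = 12 ∨ n = 45 ∨ n = 144) _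
    (Nat.mem_divisors.2 ⟨hG ▸ Dvd.intro_left _ h1', by simp⟩) (card_sylow_modEq_one 11 G) with e | e | e | e <;>
    rw [e, hG] at h1 <;> rw [h1] at h5
  · have : Subsingleton (Sylow 11 G) := (Nat.card_eq_one_iff_unique.1 e).1
    have := P.normal_of_subsingleton
    have h7 := h.normal hG h11 hs (H := Subgroup.centralizer (P.1 : Set G)) h2 inf_le_left
    erw [h7, hc] at h5
    omega
  · obtain ⟨T, hT⟩ := Sylow.exists_subgroup_card_pow_prime (G := Subgroup.centralizer (P : Set G)) 3 (n := 1) (by omega)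
    obtain ⟨t, ht⟩ := @exists_ne _ (Finite.one_lt_card_iff_nontrivial.1 (by rw [hT]; simp) : Nontrivial T) 1
    have h7 := h.card_fix hG h11 hs t.1.2 (by simpa using ht) (by omega) (by omega)
    have h8 := h6 3 _ _ ((IsPGroup.of_card hT).map (Subgroup.subtype _)) ⟨t, t.2, rfl⟩
    erw [e] at h7 h8
    simp only [Subgroup.coe_subtype] at h8
    omega
  · obtain ⟨T, hT⟩ := Sylow.exists_subgroup_card_pow_prime (G := Subgroup.centralizer (P : Set G)) 2 (n := 3) (by omega)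
    refine absurd (card_dvd_of_free (S := T) (x := P) (fun t => Sylow.smul_eq_iff_mem_normalizer.2
      (Subgroup.centralizer_le_normalizer _ t.1.2)) fun t Q hQ => ?_) (by rw [hT, e]; simp)
    by_contra! h7
    have h8 := h.card_fix hG h11 hs t.1.2 (by simpa using h7.1) (by omega) (by omega)
    have h9 := h6 2 _ _ ((IsPGroup.of_card hT).map (Subgroup.subtype _)) ⟨t, t.2, rfl⟩
    have h10 : 1 < Nat.card (fixedBy (Sylow 11 G) t.1.1) := Finite.one_lt_card_iff_nontrivial.2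
      ⟨⟨Q, hQ⟩, ⟨P, Sylow.smul_eq_iff_mem_normalizer.2 (Subgroup.centralizer_le_normalizer _ t.1.2)⟩,
        fun e => h7.2 (congrArg Subtype.val e)⟩
    rw [e] at h8 h9
    exact (by decide +kernel : ∀ n ∈ Nat.divisors 720, n % 11 = 1 → n < 45 → 45 % 2 = n % 2 → ¬ 1 < n) _ h8.1 h8.2.1
      h8.2.2 h9 h10
  · have h7 : P.1 ≤ N := Subgroup.eq_of_le_of_card_ge hP (by rw [hc, hx']) ▸ Subgroup.zpowers_le.2 x.2
    have h8 := Sylow.normalizer_sup_eq_top' P h7
    have h9 : P.1 ≤ N ⊓ Subgroup.normalizer (P : Set G) := le_inf h7 Subgroup.le_normalizer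
    have h10 := Subgroup.card_dvd_of_le (inf_le_right : N ⊓ Subgroup.normalizer (P : Set G) ≤ _)
    rcases (by decide +kernel : ∀ n ∈ Nat.divisors (7920 / 144), 11 ∣ n → n = 11 ∨ n = 7920 / 144) _
      (Nat.mem_divisors.2 ⟨h1 ▸ h10, by simp⟩) (hc.symm.dvd.trans (Subgroup.card_dvd_of_le h9)) with e | e
    · have h12 := h.normal hG h11 hs h7 ((Subgroup.eq_of_le_of_card_ge h9 (by rw [e, hc])).ge.trans h2)
      erw [Subgroup.normalizer_eq_top_iff.2 (h12 ▸ hN : P.1.Normal), Subgroup.card_top] at h1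
      omega
    · exact h0.2 ((sup_eq_right.2 (inf_eq_right.1
        (Subgroup.eq_of_le_of_card_ge inf_le_right (h1.trans e.symm).le))).symm.trans h8)

end Cfsg.Agent.KG
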